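import Mathlib
import Cfsg.Agent.Lib.Helper48.S4415.RedDefs

/-!
S4415 (helper78), [RED] sub-package [R-QK] (helper79 for helper48): a four-group `Q` normalized but
not centralized by `b` (`b ^ 3 = 1`, `b ∈ T`, `T` normal with `T / K` a `3`-group) lies in
`⁅K, ⟨b⟩⁆`.
-/

set_option autoImplicit false

namespace Cfsg.Agent.Lib.Helper79.S4415

open Cfsg.Agent.Lib.Helper78.S4415 Cfsg.Agent.Lib.Helper48.S4415

universe u

/-- A group of exponent 2 is abelian (elementwise form in a subgroup). -/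
theorem qk_comm {S : Type u} [Group S] (Q : Subgroup S) (hQ2 : ∀ q ∈ Q, q * q = 1) :
    ∀ x ∈ Q, ∀ y ∈ Q, x * y = y * x := by
  intro x hx y hy
  have h1 := hQ2 (x * y) (Q.mul_mem hx hy)
  have h2 := hQ2 x hx
  have h3 := hQ2 y hy
  calc x * y = (x * y)⁻¹ := (inv_eq_of_mul_eq_one_left h1).symm
    _ = y⁻¹ * x⁻¹ := mul_inv_rev x y
    _ = y * x := by rw [inv_eq_of_mul_eq_one_left h2, inv_eq_of_mul_eq_one_left h3]

/-- Conjugation by `b` (of order dividing 3) has no fixed point `≠ 1` on a four-group `Q` of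
exponent 2 that it normalizes but does not centralize. -/
theorem qk_fpf {S : Type u} [Group S] [Finite S] (b : S) (Q : Subgroup S) (hb3 : b ^ 3 = 1)
    (hQ4 : Nat.card ↥Q = 4) (hQ2 : ∀ q ∈ Q, q * q = 1) (hnorm : ∀ q ∈ Q, b * q * b⁻¹ ∈ Q)
    (hmove : ∃ q ∈ Q, b * q * b⁻¹ ≠ q) : ∀ q0 ∈ Q, b * q0 * b⁻¹ = q0 → q0 = 1 := by
  intro q0 hq0 hfix
  by_contra hne
  obtain ⟨q1, hq1, hq1m⟩ := hmove
  have hab := qk_comm Q hQ2
  obtain ⟨H, hH⟩ : ∃ H : Subgroup ↥Q, H = Subgroup.zpowers (⟨q0, hq0⟩ : ↥Q) := ⟨_, rfl⟩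
  have hord : orderOf (⟨q0, hq0⟩ : ↥Q) = 2 := by
    apply orderOf_eq_prime
    · apply Subtype.ext
      rw [pow_two]
      exact hQ2 q0 hq0
    · intro h
      exact hne (congrArg Subtype.val h)
  have hcardH : Nat.card ↥H = 2 := by rw [hH, Nat.card_zpowers, hord]
  have hidx : H.index = 2 := by
    have := H.card_mul_index
    rw [hcardH, hQ4] at this
    omega
  have hHfix : ∀ h : ↥Q, h ∈ H → b * (h : S) * b⁻¹ = (h : S) := by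
    intro h hh
    rw [hH] at hh
    obtain ⟨k, rfl⟩ := Subgroup.mem_zpowers_iff.mp hh
    rw [Subgroup.coe_zpow]
    show b * q0 ^ k * b⁻¹ = q0 ^ k
    rw [← conj_zpow, hfix]
  have hx : (⟨q1, hq1⟩ : ↥Q) ∉ H := fun h => hq1m (hHfix _ h)
  have hy : (⟨b * q1 * b⁻¹, hnorm q1 hq1⟩ : ↥Q) ∉ H := by
    intro h
    have h1 : b * (b * q1 * b⁻¹) * b⁻¹ = b * q1 * b⁻¹ := hHfix _ h
    apply hq1m
    calc b * q1 * b⁻¹ = b⁻¹ * (b * (b * q1 * b⁻¹) * b⁻¹) * b := by group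
      _ = b⁻¹ * (b * q1 * b⁻¹) * b := by rw [h1]
      _ = q1 := by group
  have hxy : (⟨q1, hq1⟩ : ↥Q) * ⟨b * q1 * b⁻¹, hnorm q1 hq1⟩ ∈ H :=
    (Subgroup.mul_mem_iff_of_index_two hidx).mpr (iff_of_false hx hy)
  have h3 : b * (q1 * (b * q1 * b⁻¹)) * b⁻¹ = q1 * (b * q1 * b⁻¹) := hHfix _ hxy
  have h4 : b * (b * q1 * b⁻¹) * b⁻¹ = q1 := by
    have e1 : b * (q1 * (b * q1 * b⁻¹)) * b⁻¹ = (b * q1 * b⁻¹) * (b * (b * q1 * b⁻¹) * b⁻¹) := by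
      group
    have e2 : q1 * (b * q1 * b⁻¹) = (b * q1 * b⁻¹) * q1 := hab q1 hq1 _ (hnorm q1 hq1)
    rw [e1, e2] at h3
    exact mul_left_cancel h3
  have h5 : b * (b * (b * q1 * b⁻¹) * b⁻¹) * b⁻¹ = q1 := by
    have hb3' : b * b * b = 1 := by rw [← hb3, pow_succ, pow_two]
    have : b * (b * (b * q1 * b⁻¹) * b⁻¹) * b⁻¹ = (b * b * b) * q1 * (b * b * b)⁻¹ := by group
    rw [this, hb3']; group
  rw [h4] at h5
  exact hq1m h5

/-- [R-QK]. -/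
theorem pkgQK : PkgQK.{u} := by
  intro S _ _ K T b Q hTn hbT hT hb3 hQ4 hQ2 hnorm hmove
  have hfpf := qk_fpf b Q hb3 hQ4 hQ2 hnorm hmove
  -- the commutators `[q, b]`, `q ∈ Q`, lie in `Q` and in `K`
  have hcQ : ∀ q ∈ Q, q * b * q⁻¹ * b⁻¹ ∈ Q := by
    intro q hq
    have h1 : q * b * q⁻¹ * b⁻¹ = q * (b * q⁻¹ * b⁻¹) := by group
    rw [h1]
    exact Q.mul_mem hq (hnorm _ (Q.inv_mem hq))
  have hcK : ∀ q ∈ Q, q * b * q⁻¹ * b⁻¹ ∈ K := by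
    intro q hq
    have h1 : q * b * q⁻¹ * b⁻¹ ∈ T := T.mul_mem (hTn.conj_mem b hbT q) (T.inv_mem hbT)
    obtain ⟨n, hn⟩ := hT _ h1
    have h2 := hQ2 _ (hcQ q hq)
    have h3 : (q * b * q⁻¹ * b⁻¹) ^ (3 ^ n) = q * b * q⁻¹ * b⁻¹ := by
      obtain ⟨k, hk⟩ : Odd (3 ^ n) := Odd.pow (by decide)
      rw [hk, pow_succ, pow_mul, pow_two, h2, one_pow, one_mul]
    rw [h3] at hn
    exact hn
  -- `q ↦ [q, b]` is injective on `Q`, hence onto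
  obtain ⟨φ, hφ⟩ : ∃ φ : ↥Q → ↥Q, ∀ q : ↥Q, ((φ q : ↥Q) : S) = (q : S) * b * (q : S)⁻¹ * b⁻¹ :=
    ⟨fun q => ⟨(q : S) * b * (q : S)⁻¹ * b⁻¹, hcQ q q.2⟩, fun _ => rfl⟩
  have hinj : Function.Injective φ := by
    intro q q' hqq
    have h1 : (q : S) * b * (q : S)⁻¹ * b⁻¹ = (q' : S) * b * (q' : S)⁻¹ * b⁻¹ := by
      rw [← hφ q, ← hφ q', hqq]
    have h2 : b * ((q' : S)⁻¹ * (q : S)) * b⁻¹ = (q' : S)⁻¹ * (q : S) := by
      calc b * ((q' : S)⁻¹ * (q : S)) * b⁻¹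
          = (q' : S)⁻¹ * ((q' : S) * b * (q' : S)⁻¹ * b⁻¹) * b * (q : S) * b⁻¹ := by group
        _ = (q' : S)⁻¹ * ((q : S) * b * (q : S)⁻¹ * b⁻¹) * b * (q : S) * b⁻¹ := by rw [h1]
        _ = (q' : S)⁻¹ * (q : S) := by group
    have h3 := hfpf _ (Q.mul_mem (Q.inv_mem q'.2) q.2) h2
    apply Subtype.ext
    calc (q : S) = (q' : S) * ((q' : S)⁻¹ * (q : S)) := by group
      _ = (q' : S) := by rw [h3, mul_one]
  have hsurj : Function.Surjective φ := Finite.injective_iff_surjective.mp hinj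
  have hQK : Q ≤ K := by
    intro x hx
    obtain ⟨q, hq⟩ := hsurj ⟨x, hx⟩
    have h1 : (q : S) * b * (q : S)⁻¹ * b⁻¹ = x := by rw [← hφ q, hq]
    rw [← h1]
    exact hcK q q.2
  intro x hx
  obtain ⟨q, hq⟩ := hsurj ⟨x, hx⟩
  have h1 : (q : S) * b * (q : S)⁻¹ * b⁻¹ = x := by rw [← hφ q, hq]
  rw [← h1]
  exact Subgroup.commutator_mem_commutator (hQK q.2) (Subgroup.mem_zpowers b)

end Cfsg.Agent.Lib.Helper79.S4415
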