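import Mathlib
import Cfsg.Agent.Lib.Helper48.S4415.RedDefs

/-!
S4415 (helper78), [RED] sub-package [R-FAITH] (helper79 for helper48): `R ⊔ ⟨b⟩` is faithful on
`[E, R]`.
-/

set_option autoImplicit false

namespace Cfsg.Agent.Lib.Helper79.S4415

open Cfsg.Agent.Lib.Helper78.S4415 Cfsg.Agent.Lib.Helper48.S4415

universe u v

/-- The subgroup of the elements fixing a submodule pointwise. -/
def fixSub {S : Type u} [Group S] {E : Type v} [AddCommGroup E] [Module (ZMod 3) E]
    (ρ : Representation (ZMod 3) S E) (F : Submodule (ZMod 3) E) : Subgroup S where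
  carrier := {g | ∀ v ∈ F, ρ g v = v}
  mul_mem' := by
    intro g h hg hh v hv
    rw [map_mul, Module.End.mul_apply, hh v hv, hg v hv]
  one_mem' := by
    intro v _
    rw [map_one, Module.End.one_apply]
  inv_mem' := by
    intro g hg v hv
    have h1 : ρ g⁻¹ (ρ g v) = v := by
      rw [← Module.End.mul_apply, ← map_mul, inv_mul_cancel, map_one, Module.End.one_apply]
    rw [hg v hv] at h1
    exact h1

theorem mem_fixSub {S : Type u} [Group S] {E : Type v} [AddCommGroup E] [Module (ZMod 3) E]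
    (ρ : Representation (ZMod 3) S E) (F : Submodule (ZMod 3) E) (g : S) :
    g ∈ fixSub ρ F ↔ ∀ v ∈ F, ρ g v = v := Iff.rfl

/-- [R-FAITH]. -/
theorem pkgFaith : PkgFaith.{u, v} := by
  intro S _ E _ _ ρ R b hinj hsup hb r hr hr0
  have h1 : R ⊔ Subgroup.zpowers b ≤ fixSub ρ (fixR ρ R) := by
    apply sup_le
    · intro x hx
      rw [mem_fixSub]
      intro v hv
      exact (mem_fixR ρ R v).mp hv x hx
    · rw [Subgroup.zpowers_le]
      exact (mem_fixSub ρ _ b).mpr hb
  have hr1 : ∀ v ∈ fixR ρ R, ρ r v = v := (mem_fixSub ρ _ r).mp (h1 hr)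
  apply hinj
  rw [map_one]
  apply LinearMap.ext
  intro v
  rw [Module.End.one_apply]
  have hv : v ∈ movR ρ R ⊔ fixR ρ R := by rw [hsup]; exact Submodule.mem_top
  obtain ⟨v0, hv0, v1, hv1, rfl⟩ := Submodule.mem_sup.mp hv
  rw [map_add, hr0 v0 hv0, hr1 v1 hv1]

end Cfsg.Agent.Lib.Helper79.S4415
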