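import Mathlib
import Cfsg.Agent.Lib.Helper48.S4415.RedDefs

/-!
S4415 (helper78), [RED] sub-package [R-INV] (helper79 for helper48): `[E, R]` and `C_E(R)` are
invariant under every subgroup normalizing `R`.
-/

set_option autoImplicit false

namespace Cfsg.Agent.Lib.Helper79.S4415

open Cfsg.Agent.Lib.Helper78.S4415 Cfsg.Agent.Lib.Helper48.S4415

universe u v

/-- [R-INV]. -/
theorem pkgInv : PkgInv.{u, v} := by
  intro S _ E _ _ ρ R H hN
  constructor
  · intro g hg v hv
    unfold movR at hv ⊢
    induction hv using Submodule.span_induction with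
    | mem x hx =>
      obtain ⟨r, hr, w, rfl⟩ := hx
      apply Submodule.subset_span
      refine ⟨g * r * g⁻¹, hN g hg r hr, ρ g w, ?_⟩
      have h1 : ρ (g * r * g⁻¹) (ρ g w) = ρ g (ρ r w) := by
        rw [← Module.End.mul_apply, ← map_mul, ← Module.End.mul_apply, ← map_mul]
        congr 2
        group
      rw [h1, map_sub]
    | zero => rw [map_zero]; exact Submodule.zero_mem _
    | add x y _ _ hx hy => rw [map_add]; exact Submodule.add_mem _ hx hy
    | smul c x _ hx => rw [map_smul]; exact Submodule.smul_mem _ c hx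
  · intro g hg v hv
    rw [mem_fixR] at hv ⊢
    intro r hr
    have h1 : g⁻¹ * r * g ∈ R := by
      have := hN g⁻¹ (H.inv_mem hg) r hr
      rwa [inv_inv] at this
    have h2 : ρ r (ρ g v) = ρ g (ρ (g⁻¹ * r * g) v) := by
      rw [← Module.End.mul_apply, ← map_mul, ← Module.End.mul_apply, ← map_mul]
      congr 2
      group
    rw [h2, hv _ h1]

end Cfsg.Agent.Lib.Helper79.S4415
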