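import Mathlib
import Cfsg.Agent.Lib.Helper82.S4415.MonDefs

/-!
S4415 (helper78), [MON] sub-package [MON-REIX] (helper79 for helper82): reindexing monomial data
by `Fin n`.
-/

set_option autoImplicit false

namespace Cfsg.Agent.Lib.Helper79.S4415

open Cfsg.Agent.Lib.Helper78.S4415 Cfsg.Agent.Lib.Helper82.S4415

universe u v

/-- [MON-REIX]. -/
theorem pkgMonReix : PkgMonReix.{u, v} := by
  intro G _ V _ _ ρ N b ι _ e σ ε hM
  obtain ⟨h1, h2, h3, h4, h5⟩ := hM
  obtain ⟨E, -⟩ : ∃ E : ι ≃ Fin (Nat.card ι), E = Finite.equivFin ι := ⟨_, rfl⟩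
  obtain ⟨σ', hσ'⟩ : ∃ σ' : G →* Equiv.Perm (Fin (Nat.card ι)),
      ∀ g i, σ' g i = E (σ g (E.symm i)) :=
    ⟨E.permCongrHom.toMonoidHom.comp σ, fun g i => rfl⟩
  refine ⟨Nat.card ι, e.reindex E, σ', fun g i => ε g (E.symm i), ?_, ?_, ?_, ?_, ?_⟩
  · intro g i
    rw [Module.Basis.reindex_apply, Module.Basis.reindex_apply, hσ', Equiv.symm_apply_apply]
    exact h1 g (E.symm i)
  · intro g i
    exact h2 g (E.symm i)
  · intro i j
    obtain ⟨g, hg⟩ := h3 (E.symm i) (E.symm j)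
    refine ⟨g, ?_⟩
    rw [hσ', hg, Equiv.apply_symm_apply]
  · intro x hx
    ext i
    rw [hσ', h4 x hx]
    simp
  · obtain ⟨i₀, i₁, i₂, h01, h12, h02, c0, c1, c2, cfix⟩ := h5
    refine ⟨E i₀, E i₁, E i₂, fun h => h01 (E.injective h), fun h => h12 (E.injective h),
      fun h => h02 (E.injective h), ?_, ?_, ?_, ?_⟩
    · rw [hσ', Equiv.symm_apply_apply, c0]
    · rw [hσ', Equiv.symm_apply_apply, c1]
    · rw [hσ', Equiv.symm_apply_apply, c2]
    · intro j hj0 hj1 hj2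
      rw [hσ', cfix (E.symm j) ?_ ?_ ?_, Equiv.apply_symm_apply]
      · intro h; apply hj0; rw [← h, Equiv.apply_symm_apply]
      · intro h; apply hj1; rw [← h, Equiv.apply_symm_apply]
      · intro h; apply hj2; rw [← h, Equiv.apply_symm_apply]

end Cfsg.Agent.Lib.Helper79.S4415
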