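import Mathlib
import Cfsg.Agent.Lib.Helper82.S4415.MonDefs

/-!
S4415 (helper78), [MON] sub-package [MON-SP] (helper79 for helper82): a faithful monomial
representation gives signed permutation data.
-/

set_option autoImplicit false

namespace Cfsg.Agent.Lib.Helper79.S4415

open Cfsg.Agent.Lib.Helper78.S4415 Cfsg.Agent.Lib.Helper82.S4415

universe u v

/-- [MON-SP]. -/
theorem pkgMonSP : PkgMonSP.{u, v} := by
  intro G _ V _ _ ρ N b n e σ ε hinj hM
  obtain ⟨h1, h2, -, -, -⟩ := hM
  refine ⟨h2, ?_, ?_⟩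
  · intro g h i
    have e1 : ρ (g * h) (e i) = ε (g * h) i • e (σ g (σ h i)) := by
      rw [h1 (g * h) i, map_mul, Equiv.Perm.mul_apply]
    have e2 : ρ (g * h) (e i) = (ε h i * ε g (σ h i)) • e (σ g (σ h i)) := by
      rw [map_mul, Module.End.mul_apply, h1 h i, map_smul, h1 g (σ h i), smul_smul]
    have e3 : ε (g * h) i • e (σ g (σ h i)) = (ε h i * ε g (σ h i)) • e (σ g (σ h i)) := by
      rw [← e1, e2]
    have e4 := congrArg (fun v => e.repr v (σ g (σ h i))) e3
    simp only [map_smul, Module.Basis.repr_self, Finsupp.smul_apply, Finsupp.single_eq_same,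
      smul_eq_mul, mul_one] at e4
    exact e4
  · intro g hσ hε
    apply hinj
    rw [map_one]
    apply e.ext
    intro i
    rw [h1 g i, hσ, hε i, one_smul, Module.End.one_apply, Equiv.Perm.one_apply]

end Cfsg.Agent.Lib.Helper79.S4415
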